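import Mathlib
import Cfsg.Agent.Chev.SzStruct

/-! Modules for the Suzuki groups in characteristic two on which the elements of odd order have no
fixed points. -/

set_option autoImplicit false
set_option linter.unusedSectionVars false

namespace Cfsg.Agent.CIT.SzM

open Cfsg Cfsg.Agent.Chev Cfsg.Agent.Chev.Suz Matrix

universe u

section general
variable {F H A : Type*} [Field F] [Group H] [AddCommGroup A] [Module F A]

/-- Elements of odd order have no fixed points. -/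
def Good (ρ : Representation F H A) : Prop :=
  ∀ y : H, y ≠ 1 → Odd (orderOf y) → ∀ a, ρ y a = a → a = 0

/-- An invariant subspace. -/
def Inv (ρ : Representation F H A) (Y : Submodule F A) : Prop := ∀ g, Y ≤ Y.comap (ρ g)

/-- An irreducible module. -/
def Irr (ρ : Representation F H A) : Prop :=
  Nontrivial A ∧ ∀ Y : Submodule F A, Inv ρ Y → Y = ⊥ ∨ Y = ⊤

variable {ρ : Representation F H A}

theorem mul_app (g h : H) (a : A) : ρ (g * h) a = ρ g (ρ h a) := by rw [map_mul]; rfl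

theorem Good.sub (h : Good ρ) {Y : Submodule F A} (hY : Inv ρ Y) :
    Good (ρ.subrepresentation Y hY) := fun y h1 ho a e =>
  Subtype.ext (h y h1 ho a (congrArg Subtype.val e))

theorem Good.surj [Finite A] (h : Good ρ) {y : H} (h1 : y ≠ 1) (ho : Odd (orderOf y)) (a : A) :
    ∃ b, ρ y b - b = a :=
  Finite.surjective_of_injective (f := fun b => ρ y b - b) (fun b c e => sub_eq_zero.1
    (h y h1 ho _ (by rw [map_sub]; exact sub_eq_sub_iff_sub_eq_sub.1 e))) a

theorem Good.quot [Finite A] (h : Good ρ) {Y : Submodule F A} (hY : Inv ρ Y) :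
    Good (ρ.quotient Y hY) := fun y h1 ho a e => by
  have : Finite (A ⧸ Y) := Finite.of_surjective _ Y.mkQ_surjective
  have hs : Function.Surjective fun b => ρ.quotient Y hY y b - b := fun b => by
    obtain ⟨b, rfl⟩ := Y.mkQ_surjective b
    obtain ⟨c, rfl⟩ := h.surj h1 ho b
    exact ⟨Y.mkQ c, by rw [map_sub]; rfl⟩
  exact Finite.injective_iff_surjective.2 hs (by simp [e])

theorem Good.dual [Finite A] (h : Good ρ) : Good ρ.dual := fun y h1 ho φ e => by
  ext a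
  obtain ⟨b, rfl⟩ := h.surj (inv_ne_one.2 h1) (by rwa [orderOf_inv]) a
  have : φ (ρ y⁻¹ b) = φ b := congrArg (fun ψ : Module.Dual F A => ψ b) e
  rw [map_sub, this, sub_self]; rfl

theorem exists_fixed [Finite A] [CharP F 2] {U : Subgroup H} (hU : IsPGroup 2 U)
    {Y : Submodule F A} (hY : ∀ u ∈ U, ∀ y ∈ Y, ρ u y ∈ Y) (hne : Y ≠ ⊥) :
    ∃ y ∈ Y, y ≠ 0 ∧ ∀ u ∈ U, ρ u y = y := by
  let _ : MulAction U Y :=
    { smul := fun u y => ⟨ρ u y, hY u u.2 y y.2⟩
      one_smul := fun y => Subtype.ext (show ρ 1 y = y by rw [map_one]; rfl)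
      mul_smul := fun u v y => Subtype.ext (mul_app _ _ _) }
  obtain ⟨y, hy, hy0⟩ := (Submodule.ne_bot_iff Y).1 hne
  have h2 : 2 ∣ Nat.card Y := by
    have : addOrderOf (⟨y, hy⟩ : Y) = 2 := addOrderOf_eq_prime (Subtype.ext (by
      show 2 • y = 0
      rw [← Nat.cast_smul_eq_nsmul F, CharP.cast_eq_zero, zero_smul]))
      fun e => hy0 (congrArg Subtype.val e)
    exact this ▸ addOrderOf_dvd_natCard _
  obtain ⟨z, hz, hz0⟩ := hU.exists_fixed_point_of_prime_dvd_card_of_fixed_point Y h2 (a := 0)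
    fun u => Subtype.ext (map_zero (ρ u))
  exact ⟨z, z.2, fun e => hz0 (Subtype.ext e).symm, fun u hu => congrArg Subtype.val (hz ⟨u, hu⟩)⟩

theorem exists_irr [Finite A] {Y : Submodule F A} (hY : Inv ρ Y) (hne : Y ≠ ⊥) :
    ∃ (Z : Submodule F A) (hZ : Inv ρ Z), Z ≤ Y ∧ Irr (ρ.subrepresentation Z hZ) := by
  have : Finite (Submodule F A) := Finite.of_injective _ SetLike.coe_injective
  obtain ⟨Z, hle, ⟨h1, h2⟩, hmin⟩ := exists_minimal_le_of_wellFoundedLT
    (fun Z : Submodule F A => Inv ρ Z ∧ Z ≠ ⊥) Y ⟨hY, hne⟩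
  refine ⟨Z, h1, hle, Submodule.nontrivial_iff_ne_bot.2 h2, fun W hW => ?_⟩
  refine (em _).imp_right fun h3 => eq_top_iff.2 fun z _ => ?_
  obtain ⟨w, hw, e⟩ := hmin (y := W.map Z.subtype) ⟨by
    rintro g _ ⟨w, hw, rfl⟩
    exact ⟨_, hW g hw, rfl⟩, fun e => h3 (Submodule.map_injective_of_injective
      Z.injective_subtype (by rw [e, Submodule.map_bot]))⟩ (Submodule.map_subtype_le _ _) z.2
  rwa [← Subtype.ext e]

theorem Good.ind {Pr : ∀ (A : Type u) [AddCommGroup A] [Module F A] [Finite A],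
      Representation F H A → Prop}
    (h0 : ∀ (A : Type u) [AddCommGroup A] [Module F A] [Finite A] (ρ : Representation F H A),
      Subsingleton A → Pr A ρ)
    (h1 : ∀ (A : Type u) [AddCommGroup A] [Module F A] [Finite A] (ρ : Representation F H A),
      Good ρ → Irr ρ → Pr A ρ)
    (h2 : ∀ (A : Type u) [AddCommGroup A] [Module F A] [Finite A] (ρ : Representation F H A)
      (Y : Submodule F A) (hY : Inv ρ Y) [Finite (A ⧸ Y)], Pr Y (ρ.subrepresentation Y hY) →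
      Pr (A ⧸ Y) (ρ.quotient Y hY) → Pr A ρ)
    {A : Type u} [AddCommGroup A] [Module F A] [Finite A] {ρ : Representation F H A}
    (h : Good ρ) : Pr A ρ := by
  induction hn : Nat.card A using Nat.strong_induction_on generalizing A with
  | _ n ih =>
  rcases subsingleton_or_nontrivial A with hs | hs
  · exact h0 A ρ hs
  by_cases hi : Irr ρ
  · exact h1 A ρ h hi
  obtain ⟨Y, hY, h3, h4⟩ : ∃ Y, Inv ρ Y ∧ Y ≠ ⊥ ∧ Y ≠ ⊤ := by
    by_contra hc
    push Not at hc
    exact hi ⟨hs, fun Y hY => (em _).imp_right (hc Y hY)⟩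
  have : Finite (A ⧸ Y) := Finite.of_surjective _ Y.mkQ_surjective
  have h5 := Y.card_eq_card_quotient_mul_card
  have h6 : 1 < Nat.card Y := Finite.one_lt_card_iff_nontrivial.2 (Submodule.nontrivial_iff_ne_bot.2 h3)
  have h7 : 1 < Nat.card (A ⧸ Y) :=
    Finite.one_lt_card_iff_nontrivial.2 (Submodule.Quotient.nontrivial_iff.2 h4)
  exact h2 A ρ Y hY (ih _ (by nlinarith) (h.sub hY) rfl) (ih _ (by nlinarith) (h.quot hY) rfl)

end general

section fieldhom
variable {F : Type*} [Field F] [CharP F 2]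

theorem eq_of_mul {α β γ : F →+* F} (h : ∀ s, α s * β s = γ s) : α = β := by
  ext s
  have h1 := h (s + 1)
  rw [map_add, map_add, map_add, map_one, map_one, map_one, ← h s] at h1
  have h2 : (2 : F) = 0 := CharTwo.two_eq_zero
  linear_combination h1 - β s * h2

theorem eq_or_of_mul [Finite F] {α β γ δ : F →+* F} (h : ∀ s, α s * β s = γ s * δ s) :
    α = γ ∨ α = δ := by
  obtain ⟨x, hx⟩ := IsCyclic.exists_monoid_generator (α := Fˣ)
  have key : ∀ {μ : F →+* F}, α x = μ x → α = μ := fun {μ} e => by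
    ext s
    by_cases hs : s = 0
    · simp [hs]
    · obtain ⟨n, hn⟩ := hx (Units.mk0 s hs)
      have : s = (x : F) ^ n := by rw [← Units.val_pow_eq_pow_val]; exact (congrArg Units.val hn).symm
      rw [this, map_pow, map_pow, e]
  have h1 := h (x + 1)
  simp only [map_add, map_one] at h1
  have h2 : (α x - γ x) * (α x - δ x) = 0 := by linear_combination α x * h1 - (α x + 1) * h x
  exact (mul_eq_zero.1 h2).imp (fun e => key (sub_eq_zero.1 e)) fun e => key (sub_eq_zero.1 e)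

end fieldhom

theorem sum_pairs {ι M : Type*} [Fintype ι] [AddCommMonoid M] (n : ι → ℕ) (hn : Function.Injective n)
    (g : ι × ι → M) : ∑ p, g p = ∑ i, g (i, i) +
      ∑ p ∈ Finset.univ.filter fun p : ι × ι => n p.1 < n p.2, (g p + g p.swap) := by
  classical
  rw [← Finset.sum_filter_add_sum_filter_not Finset.univ (fun p : ι × ι => n p.1 < n p.2),
    ← Finset.sum_filter_add_sum_filter_not (Finset.univ.filter fun p : ι × ι => ¬ n p.1 < n p.2)
      (fun p : ι × ι => n p.2 < n p.1), Finset.sum_add_distrib, add_comm (∑ i, g (i, i)), add_assoc]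
  congr 2
  · refine Finset.sum_bij' (fun p _ => p.swap) (fun p _ => p.swap) ?_ ?_ ?_ ?_ ?_ <;> simp
    intro a b h; omega
  · refine Finset.sum_bij' (fun p _ => p.1) (fun i _ => (i, i)) ?_ ?_ ?_ ?_ ?_ <;> simp
    · intro a b h h'; exact hn (by omega)
    · intro a b h h'; rw [hn (show n a = n b by omega)]

variable {F : Type*} [Field F] {m : ℕ} [hSz : SzField F m]
include hSz

noncomputable instance fintypeUnits : Fintype Fˣ := Fintype.ofFinite _

theorem cast_card_units : ((Fintype.card Fˣ : ℕ) : F) = 1 := by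
  obtain ⟨k, hk⟩ := odd_q_sub_one m
  rw [← Nat.card_eq_fintype_card, card_units, hk]
  simp [two_eq_zero']

theorem odd_hh (l : Fˣ) : Odd (orderOf (hh l : Sz F m)) := by
  rw [orderOf_hh]
  exact (odd_q_sub_one m).of_dvd_nat (card_units (F := F) ▸ orderOf_dvd_natCard l)

theorem exists_unit : ∃ l : Fˣ, l ≠ 1 := by
  obtain ⟨x, h0, h1⟩ := exists_ne_zero_one F
  exact ⟨Units.mk0 x h0, fun e => h1 (congrArg Units.val e)⟩

/-- The diagonal entries of the torus. -/
noncomputable def dg (σ : F →+* F) (c : Fin 4) : Fˣ →* F where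
  toFun l := σ (hMat (l : F) c c)
  map_one' := by rw [← mat_hh, hh_one, mat_one]; simp
  map_mul' k l := by
    rw [← map_mul]
    fin_cases c <;> simp [hMat] <;> ring

theorem dg_zero (σ : F →+* F) (l : Fˣ) : dg σ 0 l = σ (l * th F l) := rfl

theorem dg_ne (σ : F →+* F) (c : Fin 4) (l : Fˣ) : dg σ c l ≠ 0 :=
  ((Group.isUnit l).map (dg σ c)).ne_zero

theorem mat_mul_hh (g : Sz F m) (l : Fˣ) (i c : Fin 4) :
    mat (g * hh l) i c = mat g i c * hMat (l : F) c c := by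
  fin_cases c <;> simp [hMat, mul_apply, Fin.sum_univ_four]

theorem rel_cases {α β γ : F →+* F} {c : Fin 4} (h : ∀ l, dg β 0 l * (dg α 0 l)⁻¹ = dg γ c l) :
    γ = α ∨ γ = β := by
  have hθ : γ ≠ γ.comp (th F) := fun e => by
    obtain ⟨x, h0, h1⟩ := exists_ne_zero_one F
    have : x = th F x := γ.injective (congrArg (fun μ : F →+* F => μ x) e)
    exact (th_eq_self this.symm).elim h0 h1
  have ext : ∀ {P : F → Prop}, P 0 → (∀ l : Fˣ, P (l * th F l)) → ∀ s, P s := fun {P} h0 h1 s => by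
    obtain ⟨x, rfl⟩ := mul_th_surj s
    by_cases hx : x = 0
    · simpa [hx] using h0
    · exact h1 (Units.mk0 x hx)
  have h' : ∀ l : Fˣ, β (l * th F l) = α (l * th F l) * dg γ c l := fun l => by
    rw [← h l, mul_comm (dg β 0 l), ← dg_zero, ← dg_zero, mul_inv_cancel_left₀ (dg_ne _ _ _)]
  have hl : ∀ l : Fˣ, γ l ≠ 0 := fun l => by simp
  have hl' : ∀ l : Fˣ, γ (th F l) ≠ 0 := fun l => by simp
  fin_cases c
  · exact Or.inl (eq_of_mul (γ := β) (ext (by simp) fun l => (h' l).symm)).symm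
  · refine ((eq_or_of_mul (α := γ) (β := β) (γ := α) (δ := γ.comp (th F))
      (ext (by simp) fun l => ?_)).resolve_right hθ) |> Or.inl
    rw [h' l]
    simp only [dg, hMat, RingHom.comp_apply, map_mul, th_th, map_pow]
    simp
    ring
  · refine ((eq_or_of_mul (α := γ) (β := α) (γ := β) (δ := γ.comp (th F))
      (ext (by simp) fun l => ?_)).resolve_right hθ) |> Or.inr
    rw [h' l]
    have := hl l
    simp only [dg, hMat, RingHom.comp_apply, map_mul, th_th, map_pow]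
    simp
    field_simp
  · refine Or.inr (eq_of_mul (γ := α) (ext (by simp) fun l => ?_))
    rw [h' l]
    have := hl l
    have := hl' l
    simp only [dg, hMat, map_mul]
    simp
    field_simp

theorem cell (g : Sz F m) : (mat g 3 0 = 0 ∧ ∃ (a b : F) (l : Fˣ), g = uu a b * hh l) ∨
    ∃ (a b c d : F) (l : Fˣ), g = uu a b * tt F * (uu c d * hh l) ∧ mat g 3 0 = l * th F l := by
  rcases bruhat g with ⟨a, b, l, rfl⟩ | ⟨a, b, c, d, l, rfl⟩
  · exact Or.inl ⟨by simp [uMat, hMat, mul_apply, Fin.sum_univ_four], a, b, l, rfl⟩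
  · exact Or.inr ⟨a, b, c, d, l, rfl, by simp [uMat, hMat, suzukiForm, mul_apply, Fin.sum_univ_four]⟩

variable (F) in
/-- An element of order five. -/
noncomputable def x5 : Sz F m := uu 0 1 * tt F

theorem mat_x5 : mat (x5 F) = !![1, 1, 0, 1; 1, 0, 1, 0; 0, 1, 0, 0; 1, 0, 0, 0] := by
  ext i j
  fin_cases i <;> fin_cases j <;> simp [x5, uMat, suzukiForm, ff, mul_apply, Fin.sum_univ_four]

theorem mat_x5_2 : mat (x5 F * x5 F) = !![1, 1, 1, 1; 1, 0, 0, 1; 1, 0, 1, 0; 1, 1, 0, 1] := by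
  rw [mat_mul, mat_x5]
  ext i j
  fin_cases i <;> fin_cases j <;> simp [mul_apply, Fin.sum_univ_four, CharTwo.add_self_eq_zero]

theorem mat_x5_3 :
    mat (x5 F * (x5 F * x5 F)) = !![1, 0, 1, 1; 0, 1, 0, 1; 1, 0, 0, 1; 1, 1, 1, 1] := by
  rw [mat_mul, mat_x5, mat_x5_2]
  ext i j
  fin_cases i <;> fin_cases j <;> simp [mul_apply, Fin.sum_univ_four, CharTwo.add_self_eq_zero]

theorem mat_x5_4 : mat (x5 F * (x5 F * (x5 F * x5 F))) =
    !![0, 0, 0, 1; 0, 0, 1, 0; 0, 1, 0, 1; 1, 0, 1, 1] := by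
  rw [mat_mul, mat_x5, mat_x5_3]
  ext i j
  fin_cases i <;> fin_cases j <;> simp [mul_apply, Fin.sum_univ_four, CharTwo.add_self_eq_zero]

theorem x5_five : x5 F * (x5 F * (x5 F * (x5 F * x5 F))) = 1 := by
  apply mat_injective
  rw [mat_mul, mat_x5, mat_x5_4, mat_one]
  ext i j
  fin_cases i <;> fin_cases j <;> simp [mul_apply, Fin.sum_univ_four, CharTwo.add_self_eq_zero]

theorem x5_ne : x5 F ≠ 1 := fun e => by
  have := congrFun (congrFun (mat_x5 (F := F)) 3) 0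
  rw [e, mat_one] at this
  simp at this

theorem odd_x5 : Odd (orderOf (x5 F)) := by
  have := Fact.mk Nat.prime_five
  rw [orderOf_eq_prime (p := 5) (by rw [← x5_five]; simp [pow_succ']) x5_ne]; decide

variable {A : Type*} [AddCommGroup A] [Module F A] [Finite A] {ρ : Representation F (Sz F m) A}

theorem Good.five (h : Good ρ) (a : A) : a + ρ (x5 F) a + ρ (x5 F * x5 F) a +
    ρ (x5 F * (x5 F * x5 F)) a + ρ (x5 F * (x5 F * (x5 F * x5 F))) a = 0 := by
  refine h _ x5_ne odd_x5 _ ?_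
  simp only [map_add, ← mul_app, x5_five, map_one, Module.End.one_apply]
  abel

/-- A weight vector. -/
def Wt (ρ : Representation F (Sz F m) A) (ω : Fˣ →* F) (a : A) : Prop :=
  ∀ l, ρ (hh l) a = ω l • a

/-- Projection to a weight space. -/
noncomputable def proj (ρ : Representation F (Sz F m) A) (ω : Fˣ →* F) (a : A) : A :=
  ∑ l : Fˣ, ω l⁻¹ • ρ (hh l) a

theorem wt_proj (ω : Fˣ →* F) (a : A) : Wt ρ ω (proj ρ ω a) := fun k => by
  rw [proj, map_sum, Finset.smul_sum]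
  refine Fintype.sum_equiv (Equiv.mulLeft k) _ _ fun l => ?_
  rw [map_smul, ← mul_app, hh_mul, smul_smul, ← map_mul, Equiv.coe_mulLeft]
  congr 2
  rw [_root_.mul_inv_rev, mul_comm l⁻¹, mul_inv_cancel_left]

theorem Good.eq_zero (h : Good ρ) {ω : Fˣ →* F} {a : A} (ha : Wt ρ ω a) {l : Fˣ} (hl : l ≠ 1)
    (e : ω l = 1) : a = 0 :=
  h _ (hh_eq_one.not.2 hl) (odd_hh l) a (by rw [ha, e, one_smul])

/-- A highest weight vector. -/
structure HW (ρ : Representation F (Sz F m) A) (ω : Fˣ →* F) (v : A) : Prop where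
  ne : v ≠ 0
  fix : ∀ a b, ρ (uu a b) v = v
  wt : Wt ρ ω v

theorem exists_hw {Y : Submodule F A} (hU : ∀ a b, ∀ y ∈ Y, ρ (uu a b) y ∈ Y)
    (hK : ∀ l, ∀ y ∈ Y, ρ (hh l) y ∈ Y) (hne : Y ≠ ⊥) : ∃ v ∈ Y, ∃ ω, HW ρ ω v := by
  obtain ⟨y, hy, hy0, hfix⟩ := exists_fixed (ρ := ρ) (isPGroup_Qp (inf F)) (fun u hu => by
    obtain ⟨a, b, rfl⟩ := mem_Qp_inf.1 hu
    exact hU a b) hne
  let ω : ℕ → Fˣ →* F := fun j => (Units.coeHom F).comp (powMonoidHom j)
  have hs : ∑ j ∈ Finset.range (Fintype.card Fˣ), proj ρ (ω j) y = y := by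
    simp only [proj]
    rw [Finset.sum_comm, Finset.sum_eq_single 1 (fun l _ hl => ?_) (by simp)]
    · simp [← Nat.cast_smul_eq_nsmul F, cast_card_units]
    · rw [← Finset.sum_smul]
      have h1 : ((l⁻¹ : Fˣ) : F) ≠ 1 := fun e => hl (inv_eq_one.1 (Units.ext e))
      have h2 : ∑ j ∈ Finset.range (Fintype.card Fˣ), ((l⁻¹ : Fˣ) : F) ^ j = 0 := by
        rw [geom_sum_eq h1, ← Units.val_pow_eq_pow_val, pow_card_eq_one]; simp
      rw [show ∑ j ∈ Finset.range (Fintype.card Fˣ), ω j l⁻¹ = 0 from h2, zero_smul]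
  obtain ⟨j, -, hj⟩ := Finset.exists_ne_zero_of_sum_ne_zero (hs.symm ▸ hy0)
  refine ⟨_, Y.sum_mem fun l _ => Y.smul_mem _ (hK l y hy), ω j, hj, fun a b => ?_, wt_proj _ _⟩
  show ρ _ (proj ρ (ω j) y) = proj ρ (ω j) y
  rw [proj, map_sum]
  refine Finset.sum_congr rfl fun l _ => ?_
  rw [map_smul, ← mul_app, show uu a b * hh l = hh l * (hh l⁻¹ * uu a b * (hh l⁻¹)⁻¹) by
    rw [← hh_inv]; group, hh_conj_uu, mul_app, hfix _ (uu_mem_Qp _ _)]

namespace HW

variable {ω ω' : Fˣ →* F} {v v' : A}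

theorem small (h : HW ρ ω v) (a b : F) (l : Fˣ) : ρ (uu a b * hh l) v = ω l • v := by
  rw [mul_app, h.wt, map_smul, h.fix]

theorem big (h : HW ρ ω v) (a b c d : F) (l : Fˣ) :
    ρ (uu a b * tt F * (uu c d * hh l)) v = ω l • ρ (uu a b * tt F) v := by
  rw [mul_app, h.small, map_smul]

theorem wt_t (h : HW ρ ω v) (l : Fˣ) : ρ (hh l) (ρ (tt F) v) = ω l⁻¹ • ρ (tt F) v := by
  rw [← mul_app, ← inv_inv l, ← tt_mul_hh, mul_app, h.wt, map_smul, inv_inv]

theorem span_top (h : HW ρ ω v) (hg : Good ρ) (hi : Irr ρ) :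
    Submodule.span F (Set.range fun p : F × F => ρ (uu p.1 p.2 * tt F) v) = ⊤ := by
  set W := Submodule.span F (Set.range fun p : F × F => ρ (uu p.1 p.2 * tt F) v) with hW
  have h1 : ∀ g, mat g 3 0 ≠ 0 → ρ g v ∈ W := fun g h0 => by
    obtain ⟨a, b, c, d, l, rfl, -⟩ := (cell g).resolve_left fun e => h0 e.1
    rw [h.big]
    exact W.smul_mem _ (Submodule.subset_span ⟨(a, b), rfl⟩)
  have h2 : v ∈ W := by
    have := hg.five v
    rw [add_assoc, add_assoc, add_assoc, add_eq_zero_iff_eq_neg] at this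
    rw [this]
    refine neg_mem (add_mem (h1 _ ?_) (add_mem (h1 _ ?_) (add_mem (h1 _ ?_) (h1 _ ?_))))
    · rw [mat_x5]; simp
    · rw [mat_x5_2]; simp
    · rw [mat_x5_3]; simp
    · rw [mat_x5_4]; simp
  have h3 : ∀ g, ρ g v ∈ W := fun g => by
    by_cases h0 : mat g 3 0 = 0
    · rcases cell g with ⟨-, a, b, l, rfl⟩ | ⟨a, b, c, d, l, -, e⟩
      · rw [h.small]; exact W.smul_mem _ h2
      · rw [h0] at e
        exact absurd e.symm (by simp)
    · exact h1 g h0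
  refine (hi.2 W fun g => Submodule.span_le.2 ?_).resolve_left fun e => h.ne ?_
  · rintro _ ⟨p, rfl⟩
    show ρ g (ρ _ v) ∈ W
    rw [← mul_app]; exact h3 _
  · rwa [e] at h2

theorem ext_t (h : HW ρ ω v) (hg : Good ρ) (hi : Irr ρ) {B : Type*} [AddCommGroup B] [Module F B]
    {φ ψ : A →ₗ[F] B} (e : ∀ a b, φ (ρ (uu a b * tt F) v) = ψ (ρ (uu a b * tt F) v)) : φ = ψ :=
  LinearMap.ext_on_range (h.span_top hg hi) fun p => e p.1 p.2

theorem exists_phi (h : HW ρ ω v) (hg : Good ρ) (hi : Irr ρ) : ∃ φ : A →ₗ[F] F,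
    (∀ a b x, φ (ρ (uu a b) x) = φ x) ∧ φ v = 0 ∧ φ (ρ (tt F) v) = 1 := by
  have h1 : ρ (tt F) v ∉ Submodule.span F {v} := fun e => by
    obtain ⟨c, hc⟩ := Submodule.mem_span_singleton.1 e
    obtain ⟨l, hl⟩ := exists_unit (F := F)
    have h2 := h.wt_t l
    have h3 : ρ (tt F) v ≠ 0 := fun e => h.ne (by
      rw [← map_zero (ρ (tt F)), ← e, ← mul_app, tt_mul_tt, map_one]; rfl)
    rw [← hc, map_smul, h.wt, smul_comm, hc] at h2
    refine h.ne (hg.eq_zero h.wt (l := l * l) (fun e => hl (Units.ext (sq_eq_one (by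
      rw [sq]; exact congrArg Units.val e)))) ?_)
    rw [map_mul]
    nth_rewrite 2 [smul_left_injective F h3 h2]
    rw [← map_mul, mul_inv_cancel, map_one]
  obtain ⟨φ₀, h2, h3⟩ := Submodule.exists_le_ker_of_notMem h1
  have : Finite (Module.Dual F A) := DFunLike.finite _
  obtain ⟨φ, hφ, h0, hfix⟩ := exists_fixed (ρ := ρ.dual) (isPGroup_Qp (inf F))
    (Y := LinearMap.ker (Module.Dual.eval F A v)) (fun u hu φ hφ => by
      obtain ⟨a, b, e⟩ := mem_Qp_inf.1 (inv_mem hu)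
      show φ (ρ u⁻¹ v) = 0
      rw [e, h.fix]; exact hφ)
    ((Submodule.ne_bot_iff _).2 ⟨φ₀, h3 (Submodule.mem_span_singleton_self v),
      fun e => h2 (by rw [e]; rfl)⟩)
  have h4 : ∀ a b x, φ (ρ (uu a b) x) = φ x := fun a b x => by
    have := congrArg (fun ψ : Module.Dual F A => ψ x) (hfix _ (inv_mem (uu_mem_Qp a b)))
    rw [← inv_inv (uu a b)]
    exact this
  have h5 : φ (ρ (tt F) v) ≠ 0 := fun e => h0 (h.ext_t hg hi fun a b => by
    rw [mul_app, h4, e]; rfl)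
  refine ⟨(φ (ρ (tt F) v))⁻¹ • φ, fun a b x => by simp [h4], ?_, by simp [h5]⟩
  rw [LinearMap.smul_apply, show φ v = 0 from hφ, smul_zero]

theorem unique (h : HW ρ ω v) (h' : HW ρ ω' v') (hg : Good ρ) (hi : Irr ρ) : ω = ω' := by
  obtain ⟨φ, h1, -, h3⟩ := h.exists_phi hg hi
  have h4 : φ (ρ (tt F) v') ≠ 0 := fun e => by
    have : φ = 0 := h'.ext_t hg hi fun a b => by rw [mul_app, h1, e]; rfl
    rw [this] at h3
    simp at h3
  ext l
  have h5 : φ ∘ₗ ρ (hh l⁻¹) = ω l • φ := h.ext_t hg hi fun a b => by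
    rw [LinearMap.comp_apply, ← mul_app, ← mul_assoc, hh_mul_uu, mul_assoc, mul_app, h1, mul_app,
      h.wt_t, LinearMap.smul_apply, mul_app, h1, map_smul, inv_inv]
  have h6 := congrArg (fun ψ : A →ₗ[F] F => ψ (ρ (tt F) v')) h5
  simp only [LinearMap.comp_apply, h'.wt_t, map_smul, inv_inv, LinearMap.smul_apply,
    smul_eq_mul] at h6
  exact (mul_right_cancel₀ h4 h6).symm

theorem exists_sigma (h : HW ρ ω v) (hg : Good ρ) (hi : Irr ρ) : ∃ (σ : F →+* F) (φ : A →ₗ[F] F),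
    ω = dg σ 0 ∧ ∀ g, φ (ρ g v) = σ (mat g 3 0) := by
  classical
  obtain ⟨φ, h1, h2, h3⟩ := h.exists_phi hg hi
  choose r hr using mul_th_surj (F := F)
  let ψ : F → F := fun s => if h : r s = 0 then 0 else ω (Units.mk0 (r s) h)
  have hψ : ∀ l : Fˣ, ψ (l * th F l) = ω l := fun l => by
    have : r (l * th F l) = l := mul_th_inj (hr _)
    simp [ψ, this]
  have hψ0 : ψ 0 = 0 := by
    have : r 0 = 0 := mul_th_inj (by rw [hr]; simp)
    simp [ψ, this]
  have hψ1 : ψ 1 = 1 := by simpa using hψ 1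
  have hc : ∀ s : F, s = 0 ∨ ∃ l : Fˣ, s = l * th F l := fun s => by
    by_cases h : r s = 0
    · exact Or.inl (by rw [← hr s, h, zero_mul])
    · exact Or.inr ⟨Units.mk0 _ h, (hr s).symm⟩
  have hmul : ∀ s t, ψ (s * t) = ψ s * ψ t := fun s t => by
    rcases hc s with rfl | ⟨k, rfl⟩
    · simp [hψ0]
    rcases hc t with rfl | ⟨l, rfl⟩
    · simp [hψ0]
    rw [hψ, hψ, ← map_mul, ← hψ, Units.val_mul, map_mul]
    congr 1; ring
  have hF : ∀ g, φ (ρ g v) = ψ (mat g 3 0) := fun g => by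
    rcases cell g with ⟨e, a, b, l, rfl⟩ | ⟨a, b, c, d, l, rfl, e⟩
    · rw [e, h.small, map_smul, h2, hψ0, smul_zero]
    · rw [e, h.big, map_smul, mul_app, h1, h3, hψ, smul_eq_mul, mul_one]
  have hadd : ∀ s, ψ (1 + s) = 1 + ψ s := fun s => by
    obtain ⟨b, rfl⟩ := th_surjective s
    have h4 := congrArg (fun x => φ (ρ (tt F * uu 0 b) x)) (hg.five v)
    simp only [map_add, ← mul_app, hF, map_zero] at h4
    rw [mat_mul _ (x5 F * (x5 F * (x5 F * x5 F))), mat_mul _ (x5 F * (x5 F * x5 F)),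
      mat_mul _ (x5 F * x5 F), mat_mul _ (x5 F), mat_x5_4, mat_x5_3, mat_x5_2, mat_x5] at h4
    simp [uMat, suzukiForm, ff, mul_apply, Fin.sum_univ_four, hψ1] at h4
    have h5 := two_eq_zero' (F := F)
    linear_combination h4 - (1 + ψ (th F b) + ψ (1 + b + th F b)) * h5
  refine ⟨⟨⟨⟨ψ, hψ1⟩, hmul⟩, hψ0, fun s t => ?_⟩, φ, ?_, hF⟩
  · show ψ (s + t) = ψ s + ψ t
    by_cases hs : s = 0
    · simp [hs, hψ0]
    · rw [show s + t = s * (1 + s⁻¹ * t) by field_simp, hmul, hadd, mul_add, mul_one, ← hmul,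
        mul_inv_cancel_left₀ hs]
  · ext l
    exact (hψ l).symm

theorem weights {σ : F →+* F} (h : HW ρ (dg σ 0) v) (hg : Good ρ) (hi : Irr ρ) {a : A} (ha : a ≠ 0)
    (hw : Wt ρ ω a) : ∃ c, ω = dg σ c := by
  obtain ⟨σ', φ, e, hφ⟩ := h.exists_sigma hg hi
  obtain rfl : σ = σ' := by
    ext s
    obtain ⟨x, rfl⟩ := mul_th_surj s
    by_cases hx : x = 0
    · simp [hx]
    · exact congrArg (fun μ : Fˣ →* F => μ (Units.mk0 x hx)) e
  have h1 : ∃ α : Fin 4 → F, ∀ g, φ (ρ g a) = ∑ c, α c * σ (mat g 3 c) := by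
    have : a ∈ Submodule.span F (Set.range fun p : F × F => ρ (uu p.1 p.2 * tt F) v) := by
      rw [h.span_top hg hi]; trivial
    clear hw ha
    induction this using Submodule.span_induction with
    | mem x hx =>
      obtain ⟨p, rfl⟩ := hx
      exact ⟨fun c => σ (mat (uu p.1 p.2 * tt F) c 0), fun g => by
        rw [← mul_app, hφ, mat_mul, mul_apply, map_sum]
        exact Finset.sum_congr rfl fun c _ => by rw [map_mul, mul_comm]⟩
    | zero => exact ⟨0, fun g => by simp⟩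
    | add x y _ _ hx hy =>
      obtain ⟨α, hα⟩ := hx
      obtain ⟨β, hβ⟩ := hy
      exact ⟨α + β, fun g => by simp [hα, hβ, add_mul, Finset.sum_add_distrib]⟩
    | smul c x _ hx =>
      obtain ⟨α, hα⟩ := hx
      exact ⟨c • α, fun g => by simp [hα, Finset.mul_sum, mul_assoc]⟩
  obtain ⟨α, hα⟩ := h1
  obtain ⟨g, hg0⟩ : ∃ g, φ (ρ g a) ≠ 0 := by
    by_contra hn
    push Not at hn
    rcases hi.2 (⨅ g, LinearMap.ker (φ ∘ₗ ρ g)) (fun g x hx => by
      simp only [Submodule.mem_comap, Submodule.mem_iInf, LinearMap.mem_ker,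
        LinearMap.comp_apply] at hx ⊢
      exact fun k => (mul_app (ρ := ρ) k g x) ▸ hx _) with e | e
    · exact ha ((Submodule.eq_bot_iff _).1 e a ((Submodule.mem_iInf _).2 hn))
    · have h2 : φ (ρ (tt F) v) = 0 := (Submodule.mem_iInf _).1 (e.ge (Submodule.mem_top (x := v))) _
      rw [hφ] at h2
      simp [suzukiForm] at h2
  by_contra hn
  push Not at hn
  refine (linearIndependent_monoidHom Fˣ F).notMem_span_image (s := Set.range (dg σ)) (x := ω)
    (fun ⟨c, e⟩ => hn c e.symm) ?_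
  have : (ω : Fˣ → F) = ∑ c, ((φ (ρ g a))⁻¹ * (α c * σ (mat g 3 c))) • (dg σ c : Fˣ → F) := by
    ext l
    have h2 := hα (g * hh l)
    rw [mul_app, hw, map_smul, map_smul, smul_eq_mul] at h2
    rw [← mul_inv_cancel_right₀ hg0 (ω l), h2, Finset.sum_apply, Finset.sum_mul]
    refine Finset.sum_congr rfl fun c _ => ?_
    rw [mat_mul_hh, map_mul, Pi.smul_apply, smul_eq_mul]
    show _ = _ * σ (hMat (l : F) c c)
    ring
  rw [this]
  exact Submodule.sum_mem _ fun c _ => Submodule.smul_mem _ _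
    (Submodule.subset_span ⟨_, ⟨c, rfl⟩, rfl⟩)

end HW

theorem exists_hw' (hg : Good ρ) (hi : Irr ρ) : ∃ (σ : F →+* F) (v : A), HW ρ (dg σ 0) v := by
  have := hi.1
  obtain ⟨v, -, ω, h⟩ := exists_hw (ρ := ρ) (Y := ⊤) (fun _ _ _ _ => trivial) (fun _ _ _ => trivial)
    top_ne_bot
  obtain ⟨σ, -, rfl, -⟩ := h.exists_sigma hg hi
  exact ⟨σ, v, h⟩

section bil
variable {B P : Type*} [AddCommGroup B] [Module F B] [Finite B] [AddCommGroup P] [Module F P]
  [Finite P] {τ : Representation F (Sz F m) B} {π : Representation F (Sz F m) P}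

theorem bil_aux (gA : Good ρ) (gB : Good τ) (gP : Good π) (iA : Irr ρ) (iB : Irr τ) (iP : Irr π)
    {α β γ : F →+* F} {a : A} {b : B} {p : P} (ha : HW ρ (dg α 0) a) (hb : HW τ (dg β 0) b)
    (hp : HW π (dg γ 0) p) {f : A →ₗ[F] B →ₗ[F] P} (hf : ∀ g x y, f (ρ g x) (τ g y) = π g (f x y))
    (h0 : f ≠ 0) : (γ = α ∨ γ = β) ∧ γ ≠ β := by
  have h1 : f.flip b ≠ 0 := fun e => h0 (LinearMap.ext fun x => hb.ext_t gB iB fun c d => by
    have h2 : f (ρ (uu c d * tt F)⁻¹ x) b = 0 := congrArg (fun ψ : A →ₗ[F] P => ψ _) e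
    have h3 := hf (uu c d * tt F) (ρ (uu c d * tt F)⁻¹ x) b
    rw [← mul_app, mul_inv_cancel, map_one, h2, map_zero] at h3
    exact h3)
  have hu : ∀ c d x, f (ρ (uu c d) x) b = π (uu c d) (f x b) := fun c d x => by
    rw [← hf, hb.fix]
  have hk : ∀ l x, π (hh l) (f x b) = dg β 0 l • f (ρ (hh l) x) b := fun l x => by
    rw [← hf, hb.wt, map_smul]
  constructor
  · have h2 : f (ρ (tt F) a) b ≠ 0 := fun e => h1 (ha.ext_t gA iA fun c d => by
      rw [mul_app, LinearMap.flip_apply, hu, e, map_zero]; rfl)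
    obtain ⟨c, hc⟩ := hp.weights gP iP (ω := dg β 0 * (dg α 0).comp invMonoidHom) h2 fun l => by
      rw [hk, ha.wt_t, map_smul, LinearMap.smul_apply, smul_smul]; rfl
    exact rel_cases (c := c) fun l => by rw [← hc, ← map_inv]; rfl
  · rintro rfl
    obtain ⟨_, ⟨x, rfl⟩, ω, h2⟩ := exists_hw (ρ := π) (Y := LinearMap.range (f.flip b))
      (by rintro c d _ ⟨x, rfl⟩; exact ⟨_, hu c d x⟩)
      (by rintro l _ ⟨x, rfl⟩; exact ⟨dg γ 0 l • ρ (hh l) x, by
        rw [map_smul]; exact (hk l x).symm⟩) (fun e => h1 (LinearMap.range_eq_bot.1 e))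
    obtain rfl := hp.unique h2 gP iP
    obtain ⟨l, hl⟩ := exists_unit (F := F)
    have h3 := gA.eq_zero (wt_proj 1 x) hl rfl
    have h4 : ∀ l, f (ρ (hh l) x) b = f x b := fun l =>
      smul_right_injective P (dg_ne γ 0 l) ((hk l x).symm.trans (h2.wt l))
    have h5 : f.flip b (proj ρ 1 x) = f.flip b x := by
      simp [proj, h4, ← Nat.cast_smul_eq_nsmul F, cast_card_units]
    exact h2.ne (by rw [← h5, h3, map_zero])

theorem bil_irr (gA : Good ρ) (gB : Good τ) (gP : Good π) (iA : Irr ρ) (iB : Irr τ) (iP : Irr π)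
    {f : A →ₗ[F] B →ₗ[F] P} (hf : ∀ g x y, f (ρ g x) (τ g y) = π g (f x y)) : f = 0 := by
  by_contra h0
  obtain ⟨α, a, ha⟩ := exists_hw' gA iA
  obtain ⟨β, b, hb⟩ := exists_hw' gB iB
  obtain ⟨γ, p, hp⟩ := exists_hw' gP iP
  obtain ⟨h1, h2⟩ := bil_aux gA gB gP iA iB iP ha hb hp hf h0
  exact (bil_aux gB gA gP iB iA iP hb ha hp (f := f.flip) (fun g x y => hf g y x)
    fun e => h0 (by rw [← f.flip_flip, e]; rfl)).2 (h1.resolve_right h2)

theorem bil_P (gA : Good ρ) (gB : Good τ) (iA : Irr ρ) (iB : Irr τ) (gP : Good π) :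
    ∀ f : A →ₗ[F] B →ₗ[F] P, (∀ g x y, f (ρ g x) (τ g y) = π g (f x y)) → f = 0 := by
  refine Good.ind (Pr := fun P _ _ _ π => ∀ f : A →ₗ[F] B →ₗ[F] P,
    (∀ g x y, f (ρ g x) (τ g y) = π g (f x y)) → f = 0) (fun P _ _ _ π h f _ => ?_)
    (fun P _ _ _ π g i f hf => bil_irr gA gB g iA iB i hf) (fun P _ _ _ π Y hY _ h1 h2 f hf => ?_) gP
  · ext x y; exact Subsingleton.elim _ _
  · have h3 := h2 (f.compr₂ Y.mkQ) fun g x y => by
      rw [LinearMap.compr₂_apply, hf]; rfl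
    have h4 : ∀ x y, f x y ∈ Y := fun x y =>
      (Submodule.Quotient.mk_eq_zero Y).1 (congrArg (fun ψ : A →ₗ[F] B →ₗ[F] P ⧸ Y => ψ x y) h3)
    have h5 := h1 (LinearMap.mk₂ F (fun x y => ⟨f x y, h4 x y⟩) (by intros; ext; simp)
      (by intros; ext; simp) (by intros; ext; simp) (by intros; ext; simp))
      fun g x y => Subtype.ext (hf g x y)
    ext x y
    exact congrArg (fun ψ : A →ₗ[F] B →ₗ[F] Y => (ψ x y : P)) h5

theorem bil_left (h : ∀ (A : Type u) [AddCommGroup A] [Module F A] [Finite A]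
      (ρ : Representation F (Sz F m) A), Good ρ → Irr ρ → ∀ f : A →ₗ[F] B →ₗ[F] P,
      (∀ g x y, f (ρ g x) (τ g y) = π g (f x y)) → f = 0)
    {A : Type u} [AddCommGroup A] [Module F A] [Finite A] {ρ : Representation F (Sz F m) A}
    (gA : Good ρ) : ∀ f : A →ₗ[F] B →ₗ[F] P, (∀ g x y, f (ρ g x) (τ g y) = π g (f x y)) → f = 0 := by
  refine Good.ind (Pr := fun A _ _ _ ρ => ∀ f : A →ₗ[F] B →ₗ[F] P,
    (∀ g x y, f (ρ g x) (τ g y) = π g (f x y)) → f = 0) (fun A _ _ _ ρ h f _ => ?_) h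
    (fun A _ _ _ ρ Y hY _ h1 h2 f hf => ?_) gA
  · ext x y; rw [Subsingleton.elim x 0]; simp
  · have h3 := h1 (f ∘ₗ Y.subtype) fun g x y => hf g x y
    have h4 : Y ≤ LinearMap.ker f := fun x hx =>
      congrArg (fun ψ : Y →ₗ[F] B →ₗ[F] P => ψ ⟨x, hx⟩) h3
    have h5 := h2 (Y.liftQ f h4) fun g x y => by
      obtain ⟨x, rfl⟩ := Y.mkQ_surjective x
      exact hf g x y
    rw [← Y.liftQ_mkQ f h4, h5]; rfl

/-- There are no equivariant bilinear maps. -/
theorem bil_eq_zero (gA : Good ρ) (gB : Good τ) (gP : Good π) (f : A →ₗ[F] B →ₗ[F] P)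
    (hf : ∀ g x y, f (ρ g x) (τ g y) = π g (f x y)) : f = 0 := by
  refine bil_left (fun A _ _ _ ρ gA iA f hf => ?_) gA f hf
  have := bil_left (τ := ρ) (π := π) (fun B _ _ _ τ gB iB f hf => bil_P gB gA iB iA gP f hf) gB
    f.flip fun g x y => hf g y x
  rw [← f.flip_flip, this]; rfl

end bil

/-- The elements in the obstruction to lifting modulo four. -/
noncomputable def ee (p : Fˣ × Fˣ) : Sz F m :=
  uu 0 ((p.1 : F) ^ 2 * th F p.1 + (p.2 : F) ^ 2 * th F p.2) * hh (p.1 * p.2)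

variable (F) in
/-- A set of representatives for the unordered pairs. -/
noncomputable def pairs : Finset (Fˣ × Fˣ) :=
  Finset.univ.filter fun p => (Fintype.equivFin Fˣ p.1 : ℕ) < Fintype.equivFin Fˣ p.2

theorem sum_pairs' {M : Type*} [AddCommMonoid M] (g : Fˣ × Fˣ → M) :
    ∑ p, g p = ∑ i, g (i, i) + ∑ p ∈ pairs F, (g p + g p.swap) :=
  sum_pairs _ (Fin.val_injective.comp (Fintype.equivFin Fˣ).injective) g

theorem sum_ee {R : Type*} [Ring R] (π : Sz F m →* R) (h : ∑ l : Fˣ, π (hh l) = 0) :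
    ∑ p ∈ pairs F, π (ee p) + ∑ p ∈ pairs F, π (ee p) = 0 := by
  have h1 := sum_pairs' fun p : Fˣ × Fˣ => π (ee p)
  have h2 : ∑ i : Fˣ, π (ee (i, i)) = 0 := by
    rw [← h]
    refine Fintype.sum_bijective (fun l => l * l) (Finite.injective_iff_bijective.1 fun k l e =>
      Units.ext (sq_inj (by rw [sq, sq]; exact congrArg Units.val e))) _ _ fun l => ?_
    simp [ee, CharTwo.add_self_eq_zero]
  have h3 : ∑ p : Fˣ × Fˣ, π (ee p) = 0 := by
    rw [Fintype.sum_prod_type]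
    refine Finset.sum_eq_zero fun k _ => ?_
    have : ∀ l : Fˣ, π (ee (k, l)) =
        π (uu 0 ((k : F) ^ 2 * th F k)) * π (hh l) * π (uu 0 1 * hh k) := fun l => by
      rw [← map_mul, ← map_mul, mul_assoc, ← mul_assoc (hh l), hh_mul_uu, mul_assoc, hh_mul,
        ← mul_assoc, uu_mul, mul_comm l]
      simp [ee]
    simp only [this]
    rw [← Finset.sum_mul, ← Finset.mul_sum, h, mul_zero, zero_mul]
  rw [h2, h3, zero_add, Finset.sum_add_distrib] at h1
  rw [h1]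
  congr 1
  refine Finset.sum_congr rfl fun p _ => ?_
  simp [ee, add_comm, mul_comm]

theorem eq_bot_of_ee (hg : Good ρ) {Y : Submodule F A} (hY : Inv ρ Y)
    (h : ∀ y ∈ Y, ∑ p ∈ pairs F, ρ (ee p)⁻¹ y = 0) : Y = ⊥ := by
  by_contra hne
  obtain ⟨Z, hZ, hle, hi⟩ := exists_irr hY hne
  obtain ⟨σ₀, v, hv⟩ := exists_hw' (hg.sub hZ) hi
  obtain ⟨σ, φ, -, hφ⟩ := hv.exists_sigma (hg.sub hZ) hi
  set τ := ρ.subrepresentation Z hZ with hτ
  have h1 : ∑ p ∈ pairs F, τ (ee p)⁻¹ (τ (tt F) v) = 0 := Subtype.ext (by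
    rw [AddSubmonoidClass.coe_finsetSum]
    exact h _ (hle (τ (tt F) v).2))
  have h2 := congrArg (fun x => φ (τ (tt F) x)) h1
  let s : Fˣ →* F := dg (RingHom.id F) 0
  have h3 : ∀ p : Fˣ × Fˣ, mat (tt F * ((ee p)⁻¹ * tt F)) 3 0 =
      s p.1 * s p.2⁻¹ + s p.2 * s p.1⁻¹ := fun p => by
    have h4 := th_ne_zero p.1.ne_zero
    have h5 := th_ne_zero p.2.ne_zero
    simp only [s, dg_zero, ee, _root_.mul_inv_rev, hh_inv, uu_inv]
    simp [uMat, hMat, suzukiForm, ff, mul_apply, Fin.sum_univ_four]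
    field_simp
  simp only [map_sum, ← mul_app, hφ, map_zero, h3] at h2
  rw [← map_sum, map_eq_zero] at h2
  have h4 := sum_pairs' fun p : Fˣ × Fˣ => s p.1 * s p.2⁻¹
  have h5 : ∑ l, s l = 0 := sum_hom_units_eq_zero s fun e => by
    obtain ⟨l, hl⟩ := exists_unit (F := F)
    refine hl (Units.ext (mul_th_inj ?_))
    rw [Units.val_one, map_one, mul_one]
    exact congrArg (fun μ : Fˣ →* F => μ l) e
  rw [Fintype.sum_prod_type, ← Finset.sum_mul_sum _ _ s fun l => s l⁻¹, h5, zero_mul] at h4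
  simp only [Prod.fst_swap, Prod.snd_swap] at h4
  rw [h2] at h4
  simp only [← map_mul, mul_inv_cancel, map_one] at h4
  simp [cast_card_units] at h4

end Cfsg.Agent.CIT.SzM
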